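import Cfsg.Agent.Lib.Helper68.ReeCube.Defs

/-!
# S3626 (ReeCube): package [NINE]

An element of order `9` in `L = V ⋊ Γ`.
-/

set_option autoImplicit false

namespace Cfsg.Agent.Lib.Helper77.ReeCube

open Cfsg.Agent.Lib.Helper68.ReeCube Cfsg.Agent.Lib.Helper41

universe u v

/-- [NINE] -/
theorem pkgNine : PkgNine.{u, v} := by
  intro F _ _ ι _
  have h3 : (3 : F) = 0 := by
    have := CharP.cast_eq_zero F 3
    exact_mod_cast this
  set U : Matrix.SpecialLinearGroup (Fin 2) F := upperU 1 with hU
  have hUc : U.1 = !![1, 1; 0, 1] := upperU_coe 1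
  have hUinv : (U⁻¹).1 = !![1, -1; 0, 1] := by
    rw [Matrix.SpecialLinearGroup.coe_inv, hUc, Matrix.adjugate_fin_two_of]
    simp
  have hcube : cubeM F (U⁻¹).1 = !![1, -1; 0, 1] := by
    rw [hUinv]
    ext i j
    fin_cases i <;> fin_cases j <;> simp [cubeM, frobenius_def]
    exact Odd.neg_one_pow (by decide)
  have hU3 : U * U * U = 1 := by
    apply Subtype.ext
    rw [Matrix.SpecialLinearGroup.coe_mul, Matrix.SpecialLinearGroup.coe_mul, hUc,
      Matrix.SpecialLinearGroup.coe_one]
    ext i j
    fin_cases i <;> fin_cases j <;> simp [Matrix.mul_apply, Fin.sum_univ_two]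
    linear_combination h3
  set γ : Gam F := ((QuotientGroup.mk U : Matrix.ProjectiveSpecialLinearGroup (Fin 2) F), 1)
    with hγ
  have hγ3 : γ * γ * γ = 1 := by
    rw [hγ]
    apply Prod.ext
    · show (QuotientGroup.mk U : Matrix.ProjectiveSpecialLinearGroup (Fin 2) F) *
        QuotientGroup.mk U * QuotientGroup.mk U = 1
      rw [← QuotientGroup.mk_mul, ← QuotientGroup.mk_mul, hU3]
      rfl
    · show (1 : ℤˣ) * 1 * 1 = 1
      simp
  have hact : ∀ X : Matrix (Fin 2) (Fin 2) F,
      rho F ι γ (Multiplicative.ofAdd (fun _ => X)) =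
        Multiplicative.ofAdd (fun _ => !![1, 1; 0, 1] * X * !![1, -1; 0, 1]) := by
    intro X
    rw [hγ, rho_mk, hcube, hUc]
    simp
  set n : Multiplicative (VV F ι) := Multiplicative.ofAdd (fun _ => !![0, 0; 1, 0]) with hn
  set m : Multiplicative (VV F ι) := Multiplicative.ofAdd (fun _ => !![0, 1; 0, 0]) with hm
  let x : LL F ι := ⟨n, γ⟩
  have hx3 : x ^ 3 = ⟨m, 1⟩ := by
    have e : x ^ 3 = x * (x * x) := by rw [pow_succ', pow_two]
    rw [e]
    apply SemidirectProduct.ext
    · rw [SemidirectProduct.mul_left, SemidirectProduct.mul_left]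
      show n * (rho F ι γ) (n * (rho F ι γ) n) = m
      rw [map_mul, hn, hact, hact, hm, ← ofAdd_add, ← ofAdd_add]
      congr 1
      funext _
      ext i j
      fin_cases i <;> fin_cases j <;>
        simp [Fin.sum_univ_two] <;>
        first
          | linear_combination h3
          | linear_combination (-1 : F) * h3
          | linear_combination (2 : F) * h3
          | linear_combination (-2 : F) * h3
          | linear_combination (3 : F) * h3
          | linear_combination (-3 : F) * h3
    · rw [SemidirectProduct.mul_right, SemidirectProduct.mul_right]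
      show γ * (γ * γ) = 1
      rw [← mul_assoc]
      exact hγ3
  have hx9 : x ^ 3 ^ (1 + 1) = 1 := by
    have e : x ^ 3 ^ (1 + 1) = (x ^ 3) ^ 3 := by
      rw [← pow_mul]
      norm_num
    rw [e, hx3]
    have e2 : (⟨m, 1⟩ : LL F ι) ^ 3 = ⟨m, 1⟩ * (⟨m, 1⟩ * ⟨m, 1⟩) := by rw [pow_succ', pow_two]
    rw [e2]
    apply SemidirectProduct.ext
    · rw [SemidirectProduct.mul_left, SemidirectProduct.mul_left]
      show m * (rho F ι 1) (m * (rho F ι 1) m) = 1
      rw [map_one, MulAut.one_apply, MulAut.one_apply, hm, ← ofAdd_add, ← ofAdd_add]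
      show Multiplicative.ofAdd _ = Multiplicative.ofAdd 0
      congr 1
      funext _
      ext i j
      fin_cases i <;> fin_cases j <;> simp
      linear_combination h3
    · rw [SemidirectProduct.mul_right, SemidirectProduct.mul_right]
      show (1 : Gam F) * (1 * 1) = 1
      simp
  have hx3ne : ¬ x ^ 3 ^ 1 = 1 := by
    rw [pow_one, hx3]
    intro h
    have h1 : m = 1 := congrArg SemidirectProduct.left h
    obtain ⟨i⟩ := (inferInstance : Nonempty ι)
    have h2 : (!![0, 1; 0, 0] : Matrix (Fin 2) (Fin 2) F) = 0 := by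
      have := congrFun (congrArg Multiplicative.toAdd h1) i
      simpa [hm] using this
    have h4 := congrFun (congrFun h2 0) 1
    simp at h4
  have : Fact (Nat.Prime 3) := ⟨by norm_num⟩
  exact ⟨x, orderOf_eq_prime_pow hx3ne hx9⟩

end Cfsg.Agent.Lib.Helper77.ReeCube
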